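import Cfsg.Agent.Lib.Clifford.Extension
import Cfsg.Agent.Lib.CharDegreesTheory.CoprimeExtension
import Cfsg.Agent.Lib.CharDegreesTheory.Galois
import Cfsg.Agent.Lib.Coherence.CoprimeCoset
import Cfsg.Agent.Lib.Coherence.RationalValue
import Cfsg.Agent.Lib.CharTheory.Ito

/-!
# The Glauberman correspondence for a cyclic group of operators

`Γ = G S` with `S` cyclic of order coprime to `|G|`; `s` is a generator of `S` and `C = C_G(s)`.
Restricting the canonical extensions to the coset `C s` gives an orthonormal family of class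
functions of `C`, each of which is a signed irreducible character.
-/

set_option autoImplicit false
set_option linter.style.haveILetI false
set_option linter.unusedSectionVars false

open Cfsg CfsgLib.CharTheory CfsgLib.Frobenius
open scoped ComplexConjugate

namespace CfsgLib.Clifford

universe u

/-- The determinant commutes with automorphisms of `ℂ`. -/
theorem detChar_ringAut {G : Type u} [Group G] [Finite G] (σ : ℂ ≃+* ℂ) {χ : G → ℂ}
    (h : IsCharacter G χ) : detChar (fun g => σ (χ g)) = fun g => σ (detChar χ g) := by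
  obtain ⟨n, ρ, rfl⟩ := h
  let M : G →* Matrix (Fin n) (Fin n) ℂ :=
    { toFun := fun g => (LinearMap.toMatrixAlgEquiv' (ρ g)).map σ
      map_one' := by simp
      map_mul' := fun a b => by
        rw [map_mul, map_mul]
        exact map_mul (σ.toRingHom.mapMatrix) _ _ }
  let τ : Representation ℂ G (Fin n → ℂ) :=
    (Matrix.toLinAlgEquiv' : Matrix (Fin n) (Fin n) ℂ ≃ₐ[ℂ] _).toMonoidHom.comp M
  have hτ : τ.character = fun g => σ (ρ.character g) := funext fun g => by
    show LinearMap.trace ℂ _ (Matrix.toLinAlgEquiv' (M g)) = σ (ρ.character g)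
    rw [show Matrix.toLinAlgEquiv' (M g) = Matrix.toLin' (M g) from rfl, Matrix.trace_toLin'_eq,
      Representation.character, LinearMap.trace_eq_matrix_trace ℂ (Pi.basisFun ℂ (Fin n))]
    simp only [Matrix.trace, map_sum]
    exact Finset.sum_congr rfl fun i _ => by
      simp only [LinearMap.toMatrix_eq_toMatrix', Matrix.diag_apply]
      rfl
  rw [detChar_eq τ hτ, detChar_eq ρ rfl]
  funext g
  rw [linFun_apply, linFun_apply, detHom_apply, detHom_apply]
  show LinearMap.det (Matrix.toLin' (M g)) = σ (LinearMap.det (ρ g))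
  rw [LinearMap.det_toLin', ← LinearMap.det_toMatrix' (f := ρ g)]
  exact (σ.toRingHom.map_det _).symm

theorem detOrder_ringAut {G : Type u} [Group G] [Finite G] (σ : ℂ ≃+* ℂ) {χ : G → ℂ}
    (h : IsCharacter G χ) : detOrder (fun g => σ (χ g)) = detOrder χ := by
  let F : (G → ℂ) →* (G → ℂ) :=
    { toFun := fun f g => σ (f g)
      map_one' := funext fun g => map_one σ
      map_mul' := fun a b => funext fun g => map_mul σ _ _ }
  rw [detOrder, detOrder, detChar_ringAut σ h]
  exact orderOf_injective F (fun a b hab => funext fun g => σ.injective (congrFun hab g)) _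

/-- The standing hypotheses. -/
structure CyclicSetup {Γ : Type u} [Group Γ] [Fintype Γ] (G : Subgroup Γ) (n : ℕ) (s : Γ) :
    Prop where
  normal : G.Normal
  sup_eq : G ⊔ Subgroup.zpowers s = ⊤
  order : orderOf s = n
  coprime : (Nat.card G).Coprime n

namespace CyclicSetup

variable {Γ : Type u} [Group Γ] [Fintype Γ] {G : Subgroup Γ} {n : ℕ} {s : Γ} {C : Subgroup Γ}

theorem mk_surjective_zpowers (h : CyclicSetup G n s) :
    letI := h.normal
    Function.Surjective ((QuotientGroup.mk' G).comp (Subgroup.zpowers s).subtype) := by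
  haveI := h.normal
  rw [← MonoidHom.range_eq_top, MonoidHom.range_comp, Subgroup.range_subtype]
  have e := congrArg (Subgroup.map (QuotientGroup.mk' G)) h.sup_eq
  rwa [Subgroup.map_sup, QuotientGroup.map_mk'_self, bot_sup_eq,
    Subgroup.map_top_of_surjective _ (QuotientGroup.mk'_surjective G)] at e

theorem index_dvd (h : CyclicSetup G n s) : G.index ∣ n := by
  haveI := h.normal
  rw [Subgroup.index_eq_card, ← h.order, ← Nat.card_zpowers]
  exact Subgroup.card_dvd_of_surjective _ h.mk_surjective_zpowers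

theorem quotient_cyclic (h : CyclicSetup G n s) :
    letI := h.normal
    IsCyclic (Γ ⧸ G) := by
  haveI := h.normal
  exact isCyclic_of_surjective _ h.mk_surjective_zpowers

theorem mem_normalizer (h : CyclicSetup G n s) (x : Γ) :
    x ∈ Subgroup.normalizer (G : Set Γ) := by
  haveI := h.normal
  rw [Subgroup.normalizer_eq_top]
  exact Subgroup.mem_top x

theorem coprime_order (h : CyclicSetup G n s) : Nat.Coprime (orderOf s) (Nat.card G) := by
  rw [h.order]; exact h.coprime.symm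

theorem pos (h : CyclicSetup G n s) : 0 < n := h.order ▸ orderOf_pos s

/-- An element fixed by `s` centralises the coset representative. -/
theorem commute_of_mem (hC : C = G ⊓ Subgroup.centralizer ({s} : Set Γ)) (c : C) :
    Commute (c : Γ) s :=
  Subgroup.mem_centralizer_singleton_iff.1 (hC.le c.2).2

/-- Irreducible characters with reducible restriction vanish on the coset `G s`. -/
theorem vanish_or_res_irr (h : CyclicSetup G n s) [Fintype G] {ψ : Γ → ℂ}
    (hψ : IsIrrCharacter Γ ψ) :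
    IsIrrCharacter G (fun g : G => ψ g) ∨ ∀ g ∈ G, ψ (g * s) = 0 := by
  classical
  haveI := h.normal
  haveI := h.quotient_cyclic
  obtain ⟨⟨θ, hθ⟩, h0⟩ := exists_constituent G (IsIrrCharacter.isCharacter hψ)
    (apply_one_ne_zero_of_isIrr hψ)
  set T := inertia G θ with hTdef
  have hGT : G ≤ T := le_inertia G (IsIrrCharacter.isClassFunction hθ)
  by_cases hT : T = ⊤
  · left
    have hinv : ∀ g : Γ, conjChar G θ g = θ := fun g =>
      (mem_inertia G θ g).1 (by rw [← hTdef, hT]; exact Subgroup.mem_top g)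
    obtain ⟨η, hη, hηθ⟩ := CfsgLib.RealChar.exists_extension_character_of_cyclic G h.quotient_cyclic
      θ hθ fun g x => by
        have := congrFun (hinv g) x
        rw [conjChar_eq_comp] at this
        exact this
    have hb := gallagher_bijOn (φ := fun _ : G => (1 : ℂ)) isIrrCharacter_one (fun g => rfl) hinv
      (by simpa [Pi.mul_def] using hθ) hη hηθ
    have hover : classInner (indFun G ((fun _ => 1) * θ)) ψ ≠ 0 := by
      rw [show ((fun _ : G => (1 : ℂ)) * θ) = θ by simp [Pi.mul_def],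
        classInner_indFun G θ ψ (IsIrrCharacter.isClassFunction hψ), classInner_conj_symm]
      exact fun hz => h0 (by simpa using hz)
    obtain ⟨β, ⟨hβ, hβe⟩, hβψ⟩ := hb.surjOn ⟨hψ, hover⟩
    have hβc : ∀ g ∈ G, β g = β 1 := fun g hg => by
      have := apply_mul_of_over_one hβ hβe ⟨g, hg⟩ 1
      rwa [mul_one] at this
    obtain ⟨β', hβ', hval⟩ := exists_descend hβ G hβc
    letI : CommGroup (Γ ⧸ G) := IsCyclic.commGroup
    have hβ1 : β 1 = 1 := by
      rw [hval, QuotientGroup.mk_one]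
      exact apply_one_eq_one_of_comm mul_comm hβ'
    have e : (fun g : G => ψ g) = θ := funext fun g => by
      rw [← hβψ]
      simp only [Pi.mul_apply, hβc _ g.2, hβ1, one_mul, hηθ]
    rw [e]
    exact hθ
  · right
    letI : Fintype T := Fintype.ofFinite _
    haveI hTn : T.Normal := by
      refine Subgroup.Normal.of_commutator_le Γ ?_
      letI : CommGroup (Γ ⧸ G) := IsCyclic.commGroup
      have := Abelianization.commutator_subset_ker (QuotientGroup.mk' G)
      rw [QuotientGroup.ker_mk'] at this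
      exact this.trans hGT
    obtain ⟨φ, hφ, hind, -⟩ := exists_indFun_inertia_eq hθ (mem_inertia G θ) hGT hψ h0
    intro g hg
    rw [← hind]
    refine indFun_eq_zero_of_not_mem T φ fun hmem => hT ?_
    have hs : s ∈ T := by
      have := T.mul_mem (T.inv_mem (hGT hg)) hmem
      rwa [inv_mul_cancel_left] at this
    rw [eq_top_iff, ← h.sup_eq]
    exact sup_le hGT (Subgroup.zpowers_le.2 hs)

/-- Orthonormality of extensions on the coset `G s`. -/
theorem sum_coset_ext (h : CyclicSetup G n s) [Fintype G] {χ χ' : G → ℂ}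
    (hχ : IsIrrCharacter G χ) (hχ' : IsIrrCharacter G χ') {ψ ψ' : Γ → ℂ}
    (hψ : IsIrrCharacter Γ ψ) (hψ' : IsIrrCharacter Γ ψ') (he : ∀ g : G, ψ g = χ g)
    (he' : ∀ g : G, ψ' g = χ' g) [Decidable (χ = χ')] (hsame : χ = χ' → ψ = ψ') :
    ∑ g : G, ψ ((g : Γ) * s) * conj (ψ' ((g : Γ) * s)) = if χ = χ' then (Nat.card G : ℂ) else 0 := by
  haveI := h.normal
  have hGne : (Nat.card G : ℂ) ≠ 0 := Nat.cast_ne_zero.2 Nat.card_pos.ne'
  have hch : IsCharacter Γ (ψ * fun x => conj (ψ' x)) :=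
    CfsgLib.CharTheory.isCharacter_mul (IsIrrCharacter.isCharacter hψ)
      (CfsgLib.CharTheory.isCharacter_conj (IsIrrCharacter.isCharacter hψ'))
  have h1 : cosetAvg G (ψ * fun x => conj (ψ' x)) s
      = (Nat.card G : ℂ)⁻¹ * ∑ g : G, ψ ((g : Γ) * s) * conj (ψ' ((g : Γ) * s)) := by
    simp only [cosetAvg, Pi.mul_apply]
  split_ifs with hc
  · obtain rfl := hsame hc
    have h2 := congrFun (cosetAvg_mul_conj_self (N := G) hψ
      (by rw [show (fun g : G => ψ g) = χ from funext he]; exact hχ)) s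
    rw [h1] at h2
    field_simp at h2
    exact h2
  · have h3 : cosetAvg G (ψ * fun x => conj (ψ' x)) 1 = classInner χ χ' := by
      rw [cosetAvg_one, classInner]
      congr 1
      exact Finset.sum_congr (Finset.ext fun _ => by simp) fun g _ => by
        rw [Pi.mul_apply, he, he', map_one, mul_one]
    rw [classInner_eq_zero_of_ne hχ hχ' hc] at h3
    have h4 := congrFun (eq_zero_of_isCharacter_apply_one (isCharacter_cosetAvg G hch) h3) s
    rw [h1, Pi.zero_apply] at h4
    exact (mul_eq_zero.1 h4).resolve_left (inv_ne_zero hGne)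

/-- From the coset `G s` to `C s`. -/
theorem sum_coset_transfer (h : CyclicSetup G n s) [Fintype G] [Fintype C]
    (hC : C = G ⊓ Subgroup.centralizer ({s} : Set Γ)) (f : Γ → ℂ)
    (hf : ∀ x z : Γ, f (x * z * x⁻¹) = f z) :
    (Nat.card C : ℂ) * ∑ g : G, f ((g : Γ) * s)
      = (Nat.card G : ℂ) * ∑ c : C, f ((c : Γ) * s) := by
  subst hC
  have := CfsgLib.Coherence.sum_coset_eq G s (h.mem_normalizer s) h.coprime_order f fun x _ z => hf x z
  simpa [nsmul_eq_mul] using this

theorem inner_coset (h : CyclicSetup G n s) [Fintype G] [Fintype C]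
    (hC : C = G ⊓ Subgroup.centralizer ({s} : Set Γ)) {χ χ' : G → ℂ}
    (hχ : IsIrrCharacter G χ) (hχ' : IsIrrCharacter G χ') {ψ ψ' : Γ → ℂ}
    (hψ : IsIrrCharacter Γ ψ) (hψ' : IsIrrCharacter Γ ψ') (he : ∀ g : G, ψ g = χ g)
    (he' : ∀ g : G, ψ' g = χ' g) [Decidable (χ = χ')] (hsame : χ = χ' → ψ = ψ') :
    classInner (fun c : C => ψ ((c : Γ) * s)) (fun c : C => ψ' ((c : Γ) * s))
      = if χ = χ' then 1 else 0 := by
  have h1 := h.sum_coset_transfer hC (fun x => ψ x * conj (ψ' x)) fun x z => by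
    simp only [IsIrrCharacter.isClassFunction hψ z x, IsIrrCharacter.isClassFunction hψ' z x]
  simp only [h.sum_coset_ext hχ hχ' hψ hψ' he he' hsame] at h1
  rw [classInner]
  have hC0 : (Nat.card C : ℂ) ≠ 0 := Nat.cast_ne_zero.2 Nat.card_pos.ne'
  have hG0 : (Nat.card G : ℂ) ≠ 0 := Nat.cast_ne_zero.2 Nat.card_pos.ne'
  split_ifs at h1 ⊢ with hc
  · rw [mul_comm] at h1
    rw [← mul_left_cancel₀ hG0 h1]
    field_simp
  · rw [mul_zero, eq_comm, mul_eq_zero] at h1
    rw [h1.resolve_left hG0, mul_zero]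

theorem isClassFunction_coset (hC : C = G ⊓ Subgroup.centralizer ({s} : Set Γ)) {ψ : Γ → ℂ}
    (hψ : IsClassFunction Γ ψ) : IsClassFunction C (fun c : C => ψ ((c : Γ) * s)) := by
  intro c y
  show ψ ((y : Γ) * c * (y : Γ)⁻¹ * s) = ψ ((c : Γ) * s)
  conv_rhs => rw [← hψ ((c : Γ) * s) (y : Γ)]
  refine congrArg ψ ?_
  have hy : (y : Γ)⁻¹ * s = s * (y : Γ)⁻¹ := ((commute_of_mem hC y).inv_left).eq
  rw [mul_assoc ((y : Γ) * c), hy]
  simp [mul_assoc]

/-- A class function of `C` orthogonal to all extensions is zero. -/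
theorem eq_zero_of_orth (h : CyclicSetup G n s) [Fintype G] [Fintype C]
    (hC : C = G ⊓ Subgroup.centralizer ({s} : Set Γ)) {f : C → ℂ} (hf : IsClassFunction C f)
    (horth : ∀ ψ : Γ → ℂ, IsIrrCharacter Γ ψ → IsIrrCharacter G (fun g : G => ψ g) →
      classInner f (fun c : C => ψ ((c : Γ) * s)) = 0) : f = 0 := by
  classical
  haveI := h.normal
  -- the class function of `Γ` supported on the classes of `C s`
  have hwell : ∀ (c c' : C) (x : Γ), x * ((c : Γ) * s) * x⁻¹ = (c' : Γ) * s → f c' = f c := by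
    intro c c' x hx
    have hxs := CfsgLib.Coherence.conj_coprime_part_eq G s h.coprime_order (hC.le c.2).1
      (hC.le c'.2).1 (commute_of_mem hC c).eq (commute_of_mem hC c').eq hx
    obtain ⟨g, hg, t, ht, rfl⟩ : ∃ g ∈ G, ∃ t ∈ Subgroup.zpowers s, g * t = x := by
      have : x ∈ G ⊔ Subgroup.zpowers s := h.sup_eq ▸ Subgroup.mem_top x
      exact Subgroup.mem_sup_of_normal_left.1 this
    obtain ⟨k, rfl⟩ := Subgroup.mem_zpowers_iff.1 ht
    have hgC : g ∈ C := by
      rw [hC]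
      refine ⟨hg, Subgroup.mem_centralizer_singleton_iff.2 ?_⟩
      have hk : g * s ^ k * s * (g * s ^ k)⁻¹ = g * s * g⁻¹ := by group
      rw [hk] at hxs
      exact mul_inv_eq_iff_eq_mul.1 hxs
    have hcs : Commute (c : Γ) (s ^ k) := (commute_of_mem hC c).zpow_right k
    have e : g * (c : Γ) * g⁻¹ = (c' : Γ) := by
      have hgs : Commute g s := commute_of_mem hC ⟨g, hgC⟩
      refine mul_right_cancel (b := s) ?_
      rw [← hx, mul_assoc (g * (c : Γ)), hgs.inv_left.eq, mul_inv_rev,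
        show g * s ^ k * ((c : Γ) * s) * ((s ^ k)⁻¹ * g⁻¹)
          = g * (s ^ k * (c : Γ) * (s ^ k)⁻¹) * s * g⁻¹ by group,
        ← hcs.eq, mul_inv_cancel_right]
      simp [mul_assoc]
    rw [← hf c ⟨g, hgC⟩]
    exact congrArg f (Subtype.ext e.symm)
  let F : Γ → ℂ := fun z =>
    if hz : ∃ (c : C) (x : Γ), x * ((c : Γ) * s) * x⁻¹ = z then f hz.choose else 0
  have hFval : ∀ (c : C) (x : Γ), F (x * ((c : Γ) * s) * x⁻¹) = f c := by
    intro c x
    have hz : ∃ (c' : C) (x' : Γ), x' * ((c' : Γ) * s) * x'⁻¹ = x * ((c : Γ) * s) * x⁻¹ :=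
      ⟨c, x, rfl⟩
    simp only [F, dif_pos hz]
    obtain ⟨x', hx'⟩ := hz.choose_spec
    refine (hwell hz.choose c (x⁻¹ * x') ?_).symm
    calc x⁻¹ * x' * ((hz.choose : Γ) * s) * (x⁻¹ * x')⁻¹
        = x⁻¹ * (x' * ((hz.choose : Γ) * s) * x'⁻¹) * x := by group
      _ = (c : Γ) * s := by rw [hx']; group
  have hFs : ∀ c : C, F ((c : Γ) * s) = f c := fun c => by simpa using hFval c 1
  have hFcl : IsClassFunction Γ F := by
    intro z y
    by_cases hz : ∃ (c : C) (x : Γ), x * ((c : Γ) * s) * x⁻¹ = z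
    · obtain ⟨c, x, rfl⟩ := hz
      rw [show y * (x * ((c : Γ) * s) * x⁻¹) * y⁻¹ = (y * x) * ((c : Γ) * s) * (y * x)⁻¹ by group,
        hFval, hFval]
    · have hz' : ¬ ∃ (c : C) (x : Γ), x * ((c : Γ) * s) * x⁻¹ = y * z * y⁻¹ := by
        rintro ⟨c, x, hx⟩
        refine hz ⟨c, y⁻¹ * x, ?_⟩
        calc y⁻¹ * x * ((c : Γ) * s) * (y⁻¹ * x)⁻¹ = y⁻¹ * (x * ((c : Γ) * s) * x⁻¹) * y := by group
          _ = z := by rw [hx]; group
      simp only [F, dif_neg hz, dif_neg hz']
  have hFsupp : ∀ z : Γ, F z ≠ 0 → z * s⁻¹ ∈ G := by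
    intro z hz
    have hz' : ∃ (c : C) (x : Γ), x * ((c : Γ) * s) * x⁻¹ = z := by
      by_contra hne; exact hz (dif_neg hne)
    obtain ⟨c, x, rfl⟩ := hz'
    letI : CommGroup (Γ ⧸ G) := by
      haveI := h.quotient_cyclic
      exact IsCyclic.commGroup
    rw [← QuotientGroup.eq_one_iff]
    simp only [QuotientGroup.mk_mul, QuotientGroup.mk_inv]
    rw [(QuotientGroup.eq_one_iff (c : Γ)).2 (hC.le c.2).1, one_mul, mul_comm (x : Γ ⧸ G) (s : Γ ⧸ G),
      mul_inv_cancel_right, mul_inv_cancel]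
  have hF0 : F = 0 := by
    refine eq_zero_of_forall_classInner hFcl fun ψ => ?_
    have hψ := ψ.2
    rw [classInner]
    refine mul_eq_zero_of_right _ ?_
    have hsum : ∑ z : Γ, F z * conj ((ψ : Γ → ℂ) z)
        = ∑ g : G, F ((g : Γ) * s) * conj ((ψ : Γ → ℂ) ((g : Γ) * s)) := by
      refine (Finset.sum_bij_ne_zero (fun (g : G) _ _ => (g : Γ) * s) (fun _ _ _ => Finset.mem_univ _)
        (fun a _ _ b _ _ hab => Subtype.ext (mul_right_cancel hab)) (fun z _ hne => ?_)
        (fun _ _ _ => rfl)).symm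
      refine ⟨⟨z * s⁻¹, hFsupp z (left_ne_zero_of_mul hne)⟩, Finset.mem_univ _, ?_,
        inv_mul_cancel_right _ _⟩
      simpa using hne
    rw [hsum]
    rcases h.vanish_or_res_irr hψ with hirr | hvan
    · have h1 := h.sum_coset_transfer hC (fun x => F x * conj ((ψ : Γ → ℂ) x)) fun x z => by
        simp only [hFcl z x, IsIrrCharacter.isClassFunction hψ z x]
      have h2 := horth ψ hψ hirr
      rw [classInner, mul_eq_zero] at h2
      simp only [hFs] at h1
      rw [h2.resolve_left (inv_ne_zero (Nat.cast_ne_zero.2 Nat.card_pos.ne')), mul_zero,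
        mul_eq_zero] at h1
      exact h1.resolve_left (Nat.cast_ne_zero.2 Nat.card_pos.ne')
    · exact Finset.sum_eq_zero fun g _ => by rw [hvan _ g.2, map_zero, mul_zero]
  funext c
  rw [← hFs c, hF0]
  rfl

/-- Extensions with determinantal order prime to `n` are unique. -/
theorem ext_unique (h : CyclicSetup G n s) {χ : G → ℂ} (hχ : IsIrrCharacter G χ) {ψ ψ' : Γ → ℂ}
    (hψ : IsIrrCharacter Γ ψ) (hψ' : IsIrrCharacter Γ ψ') (he : ∀ g : G, ψ g = χ g)
    (he' : ∀ g : G, ψ' g = χ g) (hd : (detOrder ψ).Coprime n) (hd' : (detOrder ψ').Coprime n) :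
    ψ' = ψ := by
  haveI := h.normal
  letI : Fintype G := Fintype.ofFinite _
  obtain ⟨l, hlG, hl⟩ := exists_linFun_of_extensions hχ hψ he hψ' he'
  obtain ⟨d, -, hdvd, hd1⟩ := CfsgLib.CharTheory.IsIrrCharacter.exists_degree_dvd hχ
  have hψ1 : ψ 1 = d := (he 1).trans hd1
  have hln : l ^ n = 1 := MonoidHom.ext fun x => by
    obtain ⟨k, hk⟩ := h.index_dvd
    rw [MonoidHom.pow_apply, ← map_pow, MonoidHom.one_apply, hk, pow_mul]
    exact hlG ⟨_, pow_mem (G.pow_index_mem x) k⟩
  obtain ⟨a, ha⟩ := exists_detChar_eq (IsIrrCharacter.isCharacter hψ)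
  obtain ⟨a', ha'⟩ := exists_detChar_eq (IsIrrCharacter.isCharacter hψ')
  rw [detOrder, ha, orderOf_linFun] at hd
  rw [detOrder, ha', orderOf_linFun] at hd'
  have h1 : a' = l ^ d * a := by
    refine linFun_injective ?_
    rw [← ha', hl, detChar_mul_linear l (IsIrrCharacter.isCharacter hψ) hψ1, ha, ← map_pow, ← map_mul]
  have h3 : l = 1 := MonoidHom.ext fun x => by
    have hn : l x ^ n = 1 := by rw [← MonoidHom.pow_apply, hln]; rfl
    have ho : (l x ^ d) ^ (orderOf a * orderOf a') = 1 := by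
      have e1 : a x ^ orderOf a = 1 := by rw [← MonoidHom.pow_apply, pow_orderOf_eq_one]; rfl
      have e2 : a' x ^ orderOf a' = 1 := by rw [← MonoidHom.pow_apply, pow_orderOf_eq_one]; rfl
      have e3 : a' x = l x ^ d * a x := by rw [h1]; rfl
      rw [show l x ^ d = a' x / a x by rw [e3, mul_div_cancel_right], div_pow,
        pow_mul_eq_of_pow_eq_one e1 e2, div_self']
    have hd1 : l x ^ d = 1 := eq_of_pow_coprime (m := n) (Nat.Coprime.mul_right hd.symm hd'.symm)
      (by rw [div_one, ← pow_mul, mul_comm, pow_mul, hn, one_pow]) (by rw [ho, one_pow])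
    show l x = 1
    exact eq_of_pow_coprime (h.coprime.coprime_dvd_left hdvd).symm (by rw [div_one, hn])
      (by rw [hd1, one_pow])
  rw [hl, h3, map_one, one_mul]

/-- The canonical extension. -/
theorem exists_canonical (h : CyclicSetup G n s) {χ : G → ℂ} (hχ : IsIrrCharacter G χ)
    (hinv : ∀ (x : Γ) (g : G), χ ⟨x * g * x⁻¹, h.normal.conj_mem (g : Γ) g.2 x⟩ = χ g) :
    ∃ ψ : Γ → ℂ, IsIrrCharacter Γ ψ ∧ (∀ g : G, ψ g = χ g) ∧ (detOrder ψ).Coprime n := by
  haveI := h.normal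
  obtain ⟨η, hη, hηχ⟩ := CfsgLib.CharDegreesTheory.exists_extension_of_coprime G
    (h.coprime.coprime_dvd_right h.index_dvd) χ hχ fun x g => by
      rw [← hinv x g]
      exact congrArg χ (Subtype.ext (MulAut.conjNormal_apply x g))
  obtain ⟨d, -, hdvd, hd1⟩ := CfsgLib.CharTheory.IsIrrCharacter.exists_degree_dvd hχ
  have hη1 : η 1 = d := (hηχ 1).trans hd1
  obtain ⟨a, ha⟩ := exists_detChar_eq (IsIrrCharacter.isCharacter hη)
  set N := Nat.card G with hN
  have haG : ∀ g : G, (a ^ N) g = 1 := fun g => by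
    rw [MonoidHom.pow_apply, ← map_pow, ← Subgroup.coe_pow, hN, pow_card_eq_one', Subgroup.coe_one,
      map_one]
  have han : ((a ^ N)⁻¹) ^ n = 1 := MonoidHom.ext fun x => by
    obtain ⟨k, hk⟩ := h.index_dvd
    rw [MonoidHom.pow_apply, ← map_pow, MonoidHom.inv_apply, MonoidHom.one_apply, hk, pow_mul,
      haG ⟨_, pow_mem (G.pow_index_mem x) k⟩, inv_one]
  obtain ⟨b, hb⟩ := exists_pow_eq_of_coprime (A := Γ →* ℂˣ)
    (Nat.Coprime.mul_right (h.coprime.coprime_dvd_left hdvd).symm h.coprime.symm :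
      Nat.Coprime n (d * N)) han
  refine ⟨linFun (((a ^ N)⁻¹) ^ b) * η, isIrrCharacter_linFun_mul _ hη, fun g => ?_, ?_⟩
  · rw [Pi.mul_apply, linFun_apply, MonoidHom.zpow_apply, MonoidHom.inv_apply, haG, inv_one,
      one_zpow, Units.val_one, one_mul, hηχ]
  · rw [detOrder, detChar_mul_linear _ (IsIrrCharacter.isCharacter hη) hη1, ha, ← map_pow,
      ← map_mul, orderOf_linFun]
    refine Nat.Coprime.coprime_dvd_left (orderOf_dvd_of_pow_eq_one ?_) h.coprime
    refine MonoidHom.ext fun x => ?_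
    have hbx := DFunLike.congr_fun hb x
    simp only [MonoidHom.pow_apply, MonoidHom.zpow_apply, MonoidHom.inv_apply] at hbx
    simp only [MonoidHom.pow_apply, MonoidHom.mul_apply, MonoidHom.zpow_apply, MonoidHom.inv_apply,
      MonoidHom.one_apply, ← hN]
    rw [mul_pow, ← pow_mul, hbx, inv_mul_cancel]

/-- The canonical extension is constant on the generators `s ^ k` of the operators. -/
theorem apply_pow_eq (h : CyclicSetup G n s) (hC : C = G ⊓ Subgroup.centralizer ({s} : Set Γ))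
    {χ : G → ℂ} (hχ : IsIrrCharacter G χ) {ψ : Γ → ℂ} (hψ : IsIrrCharacter Γ ψ)
    (he : ∀ g : G, ψ g = χ g) (hd : (detOrder ψ).Coprime n) {k : ℕ} (hk : k.Coprime n) (c : C) :
    ψ ((c : Γ) * s ^ k) = ψ ((c : Γ) * s) := by
  haveI := h.normal
  set N := Nat.card G with hN
  haveI : NeZero (N * n) := ⟨Nat.mul_ne_zero Nat.card_pos.ne' h.pos.ne'⟩
  obtain ⟨K, hK1, hKk⟩ := Nat.chineseRemainder h.coprime 1 k
  have hKcop : K.Coprime (N * n) := by
    refine Nat.Coprime.mul_right ?_ ?_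
    · rw [Nat.coprime_iff_gcd_eq_one, hK1.gcd_eq, Nat.gcd_one_left]
    · rw [Nat.coprime_iff_gcd_eq_one, hKk.gcd_eq]
      exact hk
  obtain ⟨σ, hσ⟩ := CfsgLib.CharDegreesTheory.exists_ringAut_complex (N * n) K hKcop
  have hval : ∀ x : Γ, orderOf x ∣ N * n → σ (ψ x) = ψ (x ^ K) := fun x hx =>
    CfsgLib.CharDegreesTheory.ringAut_apply_character σ hσ (IsIrrCharacter.isCharacter hψ) hx
  have heq : (fun x => σ (ψ x)) = ψ := by
    refine ext_unique h hχ hψ (CfsgLib.CharDegreesTheory.isIrrCharacter_ringAut σ hψ) he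
      (fun g => ?_) hd (by rwa [detOrder_ringAut σ (IsIrrCharacter.isCharacter hψ)])
    have hg : (g : Γ) ^ N = 1 := by rw [← Subgroup.coe_pow, hN, pow_card_eq_one']; rfl
    rw [hval _ ((orderOf_dvd_of_pow_eq_one hg).trans (dvd_mul_right _ _)), ← he g]
    congr 1
    conv_rhs => rw [← pow_one (g : Γ)]
    rw [pow_eq_pow_iff_modEq]
    exact hK1.of_dvd (orderOf_dvd_of_pow_eq_one hg)
  have hcg : (c : Γ) ^ N = 1 := by
    have hc : (c : Γ) ∈ G := (hC.le c.2).1
    rw [show (c : Γ) = ((⟨c, hc⟩ : G) : Γ) from rfl, ← Subgroup.coe_pow, hN, pow_card_eq_one']; rfl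
  have hsn : s ^ n = 1 := h.order ▸ pow_orderOf_eq_one s
  have hcomm := commute_of_mem hC c
  have hord : orderOf ((c : Γ) * s) ∣ N * n := by
    refine orderOf_dvd_of_pow_eq_one ?_
    rw [hcomm.mul_pow, pow_mul, hcg, one_pow, one_mul, mul_comm, pow_mul, hsn, one_pow]
  have h5 := hval _ hord
  rw [congrFun heq, hcomm.mul_pow] at h5
  rw [h5]
  congr 2
  · refine ((pow_eq_pow_iff_modEq.2 ?_).trans (pow_one (c : Γ))).symm
    exact hK1.of_dvd (orderOf_dvd_of_pow_eq_one hcg)
  · rw [pow_eq_pow_iff_modEq]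
    exact (hKk.symm).of_dvd (orderOf_dvd_of_pow_eq_one hsn)

/-- The coefficient of `β` at the coset is an integer, and is `0` unless `β` is a constituent. -/
theorem coset_coefficient (h : CyclicSetup G n s) [Fintype C]
    (hC : C = G ⊓ Subgroup.centralizer ({s} : Set Γ))
    {χ : G → ℂ} (hχ : IsIrrCharacter G χ) {ψ : Γ → ℂ} (hψ : IsIrrCharacter Γ ψ)
    (he : ∀ g : G, ψ g = χ g) (hd : (detOrder ψ).Coprime n) (β : IrrCharacter C) :
    (∃ b : ℤ, classInner (fun c : C => ψ ((c : Γ) * s)) (β : C → ℂ) = b) ∧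
      (classInner (fun c : C => ψ ((c : Γ) * s)) (β : C → ℂ) ≠ 0 →
        classInner (fun c : C => ψ (c : Γ)) (β : C → ℂ) ≠ 0) := by
  classical
  set S := Subgroup.zpowers s with hS
  letI : Fintype S := Fintype.ofFinite _
  letI : Fintype (IrrCharacter S) := Fintype.ofFinite _
  have hcomm : ∀ (c : C) (t : S), Commute (c : Γ) t := fun c t => by
    obtain ⟨k, hk⟩ := Subgroup.mem_zpowers_iff.1 t.2
    rw [← hk]
    exact (commute_of_mem hC c).zpow_right k
  have hcS : ∀ a b : S, a * b = b * a := fun a b => by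
    obtain ⟨i, hi⟩ := Subgroup.mem_zpowers_iff.1 a.2
    obtain ⟨j, hj⟩ := Subgroup.mem_zpowers_iff.1 b.2
    exact Subtype.ext (by rw [Subgroup.coe_mul, Subgroup.coe_mul, ← hi, ← hj, zpow_mul_comm])
  let m : C × S →* Γ := MonoidHom.noncommCoprod C.subtype S.subtype fun c t => hcomm c t
  let Q : S → ℂ := fun t => classInner (fun c : C => ψ ((c : Γ) * t)) (β : C → ℂ)
  have hQ : ∀ lam : IrrCharacter S, ∃ k : ℕ, classInner Q (lam : S → ℂ) = k := by
    intro lam
    have hl1 : (lam : S → ℂ) 1 = 1 := apply_one_eq_one_of_comm hcS lam.2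
    obtain ⟨μ, hμ⟩ := exists_hom_of_degree_one lam.2 hl1
    have hprod : IsIrrCharacter (C × S)
        ((fun p : C × S => (lam : S → ℂ) p.2) * fun p : C × S => (β : C → ℂ) p.1) :=
      isIrrCharacter_mul_of_norm
        (isIrrCharacter_comp β.2 (f := MonoidHom.fst C S) fun c => ⟨(c, 1), rfl⟩)
        (CfsgLib.Coherence.isCharacter_comp (IsIrrCharacter.isCharacter lam.2) (MonoidHom.snd C S))
        (fun p => by
          rw [hμ]
          exact norm_eq_one_of_pow_eq_one' (Nat.card_pos (α := S)).ne' (by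
            rw [← Units.val_pow_eq_pow_val, ← map_pow, pow_card_eq_one', map_one, Units.val_one]))
    obtain ⟨k, hk⟩ := IsCharacter.exists_classInner_eq_nat
      (CfsgLib.Coherence.isCharacter_comp (IsIrrCharacter.isCharacter hψ) m) ⟨_, hprod⟩
    refine ⟨k, ?_⟩
    rw [← hk]
    simp only [Q, classInner, Nat.card_prod, Nat.cast_mul, mul_inv, Fintype.sum_prod_type,
      Pi.mul_apply, map_mul, Finset.mul_sum, Finset.sum_mul]
    rw [Finset.sum_comm]
    refine Finset.sum_congr rfl fun c _ => Finset.sum_congr rfl fun t _ => ?_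
    show _ = (Nat.card C : ℂ)⁻¹ * (Nat.card S : ℂ)⁻¹ *
      (ψ ((c : Γ) * (t : Γ)) * (conj ((lam : S → ℂ) t) * conj ((β : C → ℂ) c)))
    ring
  choose k hk using hQ
  have hQc : IsCharacter S Q := by
    have hQcl : IsClassFunction S Q := fun a b => by rw [hcS b a, mul_inv_cancel_right]
    rw [isCharacter_iff_exists_sum]
    exact ⟨k, by conv_lhs => rw [eq_sum_classInner hQcl]
                 simp only [hk]⟩
  have hs : s ∈ S := Subgroup.mem_zpowers s
  refine ⟨CfsgLib.Coherence.exists_int_of_forall_pow_eq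
    (IsCharacter.isGeneralizedCharacter hQc) (⟨s, hs⟩ : S) fun t ht => ?_, fun hne h0 => hne ?_⟩
  · rw [Subgroup.orderOf_mk, h.order] at ht
    simp only [Q, Subgroup.coe_pow, apply_pow_eq h hC hχ hψ he hd ht]
  · have hQ1 : Q 1 = 0 := by simpa [Q] using h0
    exact congrFun (eq_zero_of_isCharacter_apply_one hQc hQ1) ⟨s, hs⟩

/-- On the coset, a canonical extension is a signed irreducible character of `C`. -/
theorem exists_correspondent (h : CyclicSetup G n s) [Fintype G] [Fintype C]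
    (hC : C = G ⊓ Subgroup.centralizer ({s} : Set Γ))
    {χ : G → ℂ} (hχ : IsIrrCharacter G χ) {ψ : Γ → ℂ} (hψ : IsIrrCharacter Γ ψ)
    (he : ∀ g : G, ψ g = χ g) (hd : (detOrder ψ).Coprime n) :
    ∃ (β : IrrCharacter C) (ε : ℤ), (ε = 1 ∨ ε = -1) ∧
      ∀ c : C, ψ ((c : Γ) * s) = (ε : ℂ) * (β : C → ℂ) c := by
  classical
  letI : Fintype (IrrCharacter C) := Fintype.ofFinite _
  set B : C → ℂ := fun c => ψ ((c : Γ) * s) with hB
  have hb : ∀ β : IrrCharacter C, ∃ b : ℤ, classInner B (β : C → ℂ) = b :=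
    fun β => (coset_coefficient h hC hχ hψ he hd β).1
  choose b hb using hb
  have hgen : IsGeneralizedCharacter C B := by
    rw [isGeneralizedCharacter_iff_exists_sum]
    have hBcl : IsClassFunction C B :=
      isClassFunction_coset hC (IsIrrCharacter.isClassFunction hψ)
    exact ⟨b, by conv_lhs => rw [eq_sum_classInner hBcl]
                 simp only [← hb]⟩
  have h1 : classInner B B = 1 := by
    show classInner (fun c : C => ψ ((c : Γ) * s)) (fun c : C => ψ ((c : Γ) * s)) = 1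
    rw [h.inner_coset hC hχ hχ hψ hψ he he (fun _ => rfl), if_pos rfl]
  rcases exists_sign_irr_of_norm_one hgen h1 with hirr | hirr
  · exact ⟨⟨B, hirr⟩, 1, Or.inl rfl, fun c => by simp [hB]⟩
  · exact ⟨⟨-B, hirr⟩, -1, Or.inr rfl, fun c => by simp [hB]⟩

theorem correspondent_unique (h : CyclicSetup G n s) [Fintype G] [Fintype C]
    (hC : C = G ⊓ Subgroup.centralizer ({s} : Set Γ)) {ψ : Γ → ℂ} {β β' : IrrCharacter C}
    {ε ε' : ℤ} (hε : ε = 1 ∨ ε = -1) (hε' : ε' = 1 ∨ ε' = -1)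
    (hb : ∀ c : C, ψ ((c : Γ) * s) = (ε : ℂ) * (β : C → ℂ) c)
    (hb' : ∀ c : C, ψ ((c : Γ) * s) = (ε' : ℂ) * (β' : C → ℂ) c) : β' = β ∧ ε' = ε := by
  have e : (ε : ℂ) • (β : C → ℂ) = (ε' : ℂ) • (β' : C → ℂ) :=
    funext fun c => (hb c).symm.trans (hb' c)
  have hi := congrArg (fun f => classInner f (β' : C → ℂ)) e
  simp only [classInner_smul_left, classInner_self_of_isIrr β'.2, mul_one] at hi
  by_cases hbb : β = β'
  · subst hbb
    rw [classInner_self_of_isIrr β.2, mul_one] at hi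
    exact ⟨rfl, by exact_mod_cast hi.symm⟩
  · rw [classInner_eq_zero_of_ne β.2 β'.2 fun hh => hbb (Subtype.ext hh), mul_zero] at hi
    have : ε' = 0 := by exact_mod_cast hi.symm
    omega

/-- The correspondent is a constituent of the restriction. -/
theorem correspondent_constituent (h : CyclicSetup G n s) [Fintype C]
    (hC : C = G ⊓ Subgroup.centralizer ({s} : Set Γ))
    {χ : G → ℂ} (hχ : IsIrrCharacter G χ) {ψ : Γ → ℂ} (hψ : IsIrrCharacter Γ ψ)
    (he : ∀ g : G, ψ g = χ g) (hd : (detOrder ψ).Coprime n) {β : IrrCharacter C} {ε : ℤ}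
    (hε : ε = 1 ∨ ε = -1) (hb : ∀ c : C, ψ ((c : Γ) * s) = (ε : ℂ) * (β : C → ℂ) c) :
    classInner (fun c : C => ψ (c : Γ)) (β : C → ℂ) ≠ 0 := by
  refine (coset_coefficient h hC hχ hψ he hd β).2 ?_
  rw [show (fun c : C => ψ ((c : Γ) * s)) = (ε : ℂ) • (β : C → ℂ) from funext hb,
    classInner_smul_left, classInner_self_of_isIrr β.2, mul_one]
  exact Int.cast_ne_zero.2 (by omega)

theorem correspondent_injective (h : CyclicSetup G n s) [Fintype G] [Fintype C]
    (hC : C = G ⊓ Subgroup.centralizer ({s} : Set Γ))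
    {χ χ' : G → ℂ} (hχ : IsIrrCharacter G χ) (hχ' : IsIrrCharacter G χ') {ψ ψ' : Γ → ℂ}
    (hψ : IsIrrCharacter Γ ψ) (hψ' : IsIrrCharacter Γ ψ') (he : ∀ g : G, ψ g = χ g)
    (he' : ∀ g : G, ψ' g = χ' g) {β : IrrCharacter C}
    {ε ε' : ℤ} (hε : ε = 1 ∨ ε = -1) (hε' : ε' = 1 ∨ ε' = -1)
    (hb : ∀ c : C, ψ ((c : Γ) * s) = (ε : ℂ) * (β : C → ℂ) c)
    (hb' : ∀ c : C, ψ' ((c : Γ) * s) = (ε' : ℂ) * (β : C → ℂ) c) : χ = χ' := by
  classical
  by_contra hne
  have hi := h.inner_coset hC hχ hχ' hψ hψ' he he' (fun e => absurd e hne)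
  rw [if_neg hne, show (fun c : C => ψ ((c : Γ) * s)) = (ε : ℂ) • (β : C → ℂ) from funext hb,
    show (fun c : C => ψ' ((c : Γ) * s)) = (ε' : ℂ) • (β : C → ℂ) from funext hb',
    classInner_smul_left, classInner_smul_right, classInner_self_of_isIrr β.2, mul_one,
    map_intCast, ← Int.cast_mul, Int.cast_eq_zero] at hi
  rcases Int.mul_eq_zero.1 hi with h0 | h0 <;> omega

theorem correspondent_surjective (h : CyclicSetup G n s) [Fintype G] [Fintype C]
    (hC : C = G ⊓ Subgroup.centralizer ({s} : Set Γ)) (β : IrrCharacter C) :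
    ∃ (χ : G → ℂ) (ψ : Γ → ℂ) (ε : ℤ), IsIrrCharacter G χ ∧ IsIrrCharacter Γ ψ ∧
      (∀ g : G, ψ g = χ g) ∧ (detOrder ψ).Coprime n ∧ (ε = 1 ∨ ε = -1) ∧
      ∀ c : C, ψ ((c : Γ) * s) = (ε : ℂ) * (β : C → ℂ) c := by
  classical
  haveI := h.normal
  by_contra hno
  have hβ0 : (β : C → ℂ) = 0 := by
    refine h.eq_zero_of_orth hC (IsIrrCharacter.isClassFunction β.2) fun ψ hψ hirr => ?_
    set χ : G → ℂ := fun g => ψ g with hχ
    have hinv : ∀ (x : Γ) (g : G), χ ⟨x * g * x⁻¹, h.normal.conj_mem (g : Γ) g.2 x⟩ = χ g :=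
      fun x g => IsIrrCharacter.isClassFunction hψ (g : Γ) x
    obtain ⟨ψ₀, hψ₀, he₀, hd₀⟩ := exists_canonical h hirr hinv
    obtain ⟨l, hlG, hl⟩ := exists_linFun_of_extensions hirr hψ₀ he₀ hψ (fun g => rfl)
    obtain ⟨β₀, ε, hε, hb⟩ := exists_correspondent h hC hirr hψ₀ he₀ hd₀
    have hne : β ≠ β₀ := fun e => hno ⟨χ, ψ₀, ε, hirr, hψ₀, he₀, hd₀, hε, e ▸ hb⟩
    have hval : (fun c : C => ψ ((c : Γ) * s)) = ((l s : ℂ) * (ε : ℂ)) • (β₀ : C → ℂ) :=
      funext fun c => by
        rw [Pi.smul_apply, smul_eq_mul, mul_assoc, ← hb c, hl, Pi.mul_apply, linFun_apply, map_mul,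
          hlG ⟨c, (hC.le c.2).1⟩, one_mul]
    rw [hval, classInner_smul_right, classInner_eq_zero_of_ne β.2 β₀.2
      (fun e => hne (Subtype.ext e)), mul_zero]
  exact apply_one_ne_zero_of_isIrr β.2 (congrFun hβ0 1)

end CyclicSetup

end CfsgLib.Clifford
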